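import Cfsg.Agent.SubnormalizerCount.Basic
import Mathlib.Algebra.BigOperators.Fin
import Mathlib.Data.Nat.Factorization.Basic

/-!
The subnormalizer count along a normal series with `p` and `p'` factors.
-/

set_option autoImplicit false

open scoped BigOperators

namespace CfsgLib.SubnormalizerCount

variable {X : Type*} [Group X] [Finite X] {p : ℕ} [Fact p.Prime]

theorem card_good_congr {Y : Type*} [Group Y] (e : X ≃* Y) (H : Subgroup X) :
    Nat.card {g : X // Good p H g} = Nat.card {y : Y // Good p (H.map e.toMonoidHom) y} := by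
  haveI : Finite Y := Finite.of_equiv _ e.toEquiv
  refine Nat.card_congr (e.toEquiv.subtypeEquiv fun g => ⟨fun h => good_map e.toMonoidHom h, fun h => ?_⟩)
  have h1 := good_map (p := p) e.symm.toMonoidHom h
  rw [Subgroup.map_map, show e.symm.toMonoidHom.comp e.toMonoidHom = MonoidHom.id X from
    MonoidHom.ext fun x => e.symm_apply_apply x, Subgroup.map_id] at h1
  simpa using h1

/-- The factor of a step `A ≤ B` of normal subgroups. -/
noncomputable def stepFactor (p : ℕ) (H A B : Subgroup X) : ℕ :=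
  if (A.relIndex B).Coprime p then
    Nat.card {u : X // u ∈ B ∧ ∀ h ∈ H, h * u * h⁻¹ * u⁻¹ ∈ A} / Nat.card A
  else A.relIndex B

/-- The projection of a step. -/
abbrev stepMap (A B : Subgroup X) [A.Normal] [B.Normal] (hAB : A ≤ B) : X ⧸ A →* X ⧸ B :=
  QuotientGroup.map A B (MonoidHom.id X) (by simpa using hAB)

theorem stepMap_surjective (A B : Subgroup X) [A.Normal] [B.Normal] (hAB : A ≤ B) :
    Function.Surjective (stepMap A B hAB) := by
  intro y
  induction y using QuotientGroup.induction_on with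
  | H x => exact ⟨(x : X ⧸ A), rfl⟩

theorem stepMap_ker (A B : Subgroup X) [A.Normal] [B.Normal] (hAB : A ≤ B) :
    (stepMap A B hAB).ker = B.map (QuotientGroup.mk' A) := by
  rw [QuotientGroup.ker_map, Subgroup.comap_id]

theorem card_stepMap_ker (A B : Subgroup X) [A.Normal] [B.Normal] (hAB : A ≤ B) :
    Nat.card (stepMap A B hAB).ker = A.relIndex B := by
  rw [stepMap_ker, ← Subgroup.relIndex_bot_left (B.map (QuotientGroup.mk' A)),
    show (⊥ : Subgroup (X ⧸ A)) = (⊥ : Subgroup X).map (QuotientGroup.mk' A) from (Subgroup.map_bot _).symm,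
    Subgroup.relIndex_map_map, QuotientGroup.ker_mk', bot_sup_eq, sup_eq_left.mpr hAB]

theorem card_commSet {A B : Subgroup X} [A.Normal] [B.Normal] (hAB : A ≤ B) (H : Subgroup X) :
    Nat.card {u : X // u ∈ B ∧ ∀ h ∈ H, h * u * h⁻¹ * u⁻¹ ∈ A} / Nat.card A =
      Nat.card ↥((stepMap A B hAB).ker ⊓
        Subgroup.centralizer ((H.map (QuotientGroup.mk' A) : Subgroup (X ⧸ A)) : Set (X ⧸ A))) := by
  set π := QuotientGroup.mk' A
  set f := stepMap A B hAB
  have hker : f.ker = B.map π := stepMap_ker A B hAB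
  set C := f.ker ⊓ Subgroup.centralizer ((H.map π : Subgroup (X ⧸ A)) : Set (X ⧸ A)) with hC
  have hset : ∀ u : X, (u ∈ B ∧ ∀ h ∈ H, h * u * h⁻¹ * u⁻¹ ∈ A) ↔ u ∈ C.comap π := by
    intro u
    rw [Subgroup.mem_comap, hC, Subgroup.mem_inf, hker, Subgroup.mem_centralizer_iff]
    refine and_congr ⟨fun hu => ⟨u, hu, rfl⟩, ?_⟩ ⟨?_, ?_⟩
    · rintro ⟨b, hb, hbu⟩
      have := hAB ((QuotientGroup.eq (s := A)).mp hbu)
      simpa using B.mul_mem hb this
    · rintro h _ ⟨x, hx, rfl⟩
      rw [← map_mul, ← map_mul]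
      refine (QuotientGroup.eq_iff_div_mem).mpr ?_
      simpa [div_eq_mul_inv, mul_assoc] using h x hx
    · intro h x hx
      have h1 := h (π x) ⟨x, hx, rfl⟩
      rw [← map_mul, ← map_mul] at h1
      have h2 := (QuotientGroup.eq_iff_div_mem).mp h1
      simpa [div_eq_mul_inv, mul_assoc] using h2
  rw [Nat.card_congr (Equiv.subtypeEquivRight hset)]
  have h2 : Nat.card (↥(C.comap π)) = Nat.card A * Nat.card C := by
    rw [← Nat.card_prod]
    exact Nat.card_congr (QuotientGroup.preimageMkEquivSubgroupProdSet A (C : Set (X ⧸ A)))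
  rw [show Nat.card {u // u ∈ C.comap π} = Nat.card A * Nat.card C from h2, Nat.mul_div_cancel_left _ Nat.card_pos]

theorem card_good_step {H A B : Subgroup X} [A.Normal] [B.Normal] (hH : IsPGroup p H) (hAB : A ≤ B)
    (hfac : (∃ m : ℕ, A.relIndex B = p ^ m) ∨ (A.relIndex B).Coprime p) :
    Nat.card {g : X ⧸ A // Good p (H.map (QuotientGroup.mk' A)) g} =
      stepFactor p H A B * Nat.card {g : X ⧸ B // Good p (H.map (QuotientGroup.mk' B)) g} := by
  set π := QuotientGroup.mk' A
  let f : X ⧸ A →* X ⧸ B := QuotientGroup.map A B (MonoidHom.id X) (by simpa using hAB)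
  have hf : Function.Surjective f := by
    intro y
    induction y using QuotientGroup.induction_on with
    | H x => exact ⟨(x : X ⧸ A), rfl⟩
  have hker : f.ker = B.map π := by
    rw [QuotientGroup.ker_map, Subgroup.comap_id]
  have hcomp : (H.map π).map f = H.map (QuotientGroup.mk' B) := by
    rw [Subgroup.map_map]; rfl
  have hcardker : Nat.card f.ker = A.relIndex B := by
    have h1 := Subgroup.relIndex_mul_relIndex (⊥ : Subgroup X) A B bot_le hAB
    rw [hker, ← Subgroup.relIndex_bot_left (B.map π), show (⊥ : Subgroup (X ⧸ A)) = (⊥ : Subgroup X).map π from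
      (Subgroup.map_bot π).symm, Subgroup.relIndex_map_map, QuotientGroup.ker_mk', bot_sup_eq, sup_eq_left.mpr hAB]
  unfold stepFactor
  split_ifs with hc
  · rw [card_good_of_coprimeKer f hf (hcardker ▸ hc) (hH.map π), hcomp]
    congr 1
    exact (card_commSet hAB H).symm
  · obtain ⟨m, hm⟩ := hfac.resolve_right hc
    rw [card_good_of_pKer f hf (IsPGroup.of_card (n := m) (hcardker.trans hm)) _, hcomp, hcardker]

/-- The whole series. -/
theorem card_good_series {H : Subgroup X} (hH : IsPGroup p H) (n : ℕ) (M : Fin (n + 1) → Subgroup X)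
    (h0 : M 0 = ⊥) (hn : M (Fin.last n) = ⊤) (hmono : Monotone M) (hnormal : ∀ i, (M i).Normal)
    (hfac : ∀ i : Fin n, (∃ m : ℕ, (M i.castSucc).relIndex (M i.succ) = p ^ m) ∨
      ((M i.castSucc).relIndex (M i.succ)).Coprime p) :
    Nat.card {g : X // Good p H g} = ∏ i : Fin n, stepFactor p H (M i.castSucc) (M i.succ) := by
  haveI := hnormal
  let c : Fin (n + 1) → ℕ := fun i => Nat.card {g : X ⧸ M i // Good p (H.map (QuotientGroup.mk' (M i))) g}
  have hc0 : c 0 = Nat.card {g : X // Good p H g} := by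
    let e : X ≃* X ⧸ M 0 := (QuotientGroup.quotientBot.symm).trans (QuotientGroup.quotientMulEquivOfEq h0.symm)
    rw [card_good_congr e H]
    rfl
  have hcn : c (Fin.last n) = 1 := by
    haveI : Subsingleton (X ⧸ M (Fin.last n)) := by
      rw [hn]; exact QuotientGroup.subsingleton_quotient_top
    haveI : Nonempty {g : X ⧸ M (Fin.last n) // Good p (H.map (QuotientGroup.mk' (M (Fin.last n)))) g} :=
      ⟨⟨1, _, hH.map _, le_rfl, Subgroup.one_mem _⟩⟩
    exact Nat.card_of_subsingleton (Classical.arbitrary _)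
  have key : ∀ k, ∀ hk : k ≤ n, c 0 = (∏ i : Fin k, stepFactor p H (M (Fin.castLE hk i).castSucc)
      (M (Fin.castLE hk i).succ)) * c ⟨k, by omega⟩ := by
    intro k
    induction k with
    | zero => intro _; simp
    | succ k ih =>
      intro hk
      rw [ih (by omega), Fin.prod_univ_castSucc, mul_assoc]
      congr 1
      exact card_good_step hH (hmono (Fin.le_def.mpr (by simp))) (hfac ⟨k, by omega⟩)
  rw [← hc0, key n le_rfl]
  show _ * c (Fin.last n) = _
  rw [hcn, mul_one]
  rfl

/-- The product of the `p`-factors is the order of a Sylow subgroup. -/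
theorem prod_pFactors (P : Sylow p X) (n : ℕ) (M : Fin (n + 1) → Subgroup X)
    (h0 : M 0 = ⊥) (hn : M (Fin.last n) = ⊤) (hmono : Monotone M)
    (hfac : ∀ i : Fin n, (∃ m : ℕ, (M i.castSucc).relIndex (M i.succ) = p ^ m) ∨
      ((M i.castSucc).relIndex (M i.succ)).Coprime p) :
    ∏ i : Fin n, (if ((M i.castSucc).relIndex (M i.succ)).Coprime p then 1
      else (M i.castSucc).relIndex (M i.succ)) = Nat.card (P : Subgroup X) := by
  have key : ∀ k, ∀ hk : k ≤ n, Nat.card (M ⟨k, by omega⟩) =
      ∏ i : Fin k, (M (Fin.castLE hk i).castSucc).relIndex (M (Fin.castLE hk i).succ) := by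
    intro k
    induction k with
    | zero => intro _; simp [show (⟨0, _⟩ : Fin (n + 1)) = 0 from rfl, h0]
    | succ k ih =>
      intro hk
      rw [Fin.prod_univ_castSucc]
      have h1 := Subgroup.relIndex_mul_relIndex (⊥ : Subgroup X) (M ⟨k, by omega⟩) (M ⟨k + 1, by omega⟩)
        bot_le (hmono (Fin.le_def.mpr (by simp)))
      rw [Subgroup.relIndex_bot_left, Subgroup.relIndex_bot_left, ih (by omega)] at h1
      exact h1.symm
  have hG : Nat.card X = ∏ i : Fin n, (M i.castSucc).relIndex (M i.succ) := by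
    have h := key n le_rfl
    rw [show (⟨n, _⟩ : Fin (n + 1)) = Fin.last n from rfl, hn, Subgroup.card_top] at h
    exact h
  have hne : ∀ i : Fin n, (M i.castSucc).relIndex (M i.succ) ≠ 0 := fun i h => by
    have := Finset.prod_eq_zero (f := fun i : Fin n => (M i.castSucc).relIndex (M i.succ)) (Finset.mem_univ i) h
    rw [← hG] at this
    exact Nat.card_pos.ne' this
  rw [P.card_eq_multiplicity, hG, Nat.factorization_prod_apply (fun i _ => hne i), ← Finset.prod_pow_eq_pow_sum]
  refine Finset.prod_congr rfl fun i _ => ?_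
  split_ifs with hc
  · rw [Nat.factorization_eq_zero_of_not_dvd ((Fact.out : p.Prime).coprime_iff_not_dvd.mp hc.symm), pow_zero]
  · obtain ⟨m, hm⟩ := (hfac i).resolve_right hc
    rw [hm, Nat.factorization_pow_self (Fact.out : p.Prime)]

theorem stepFactor_split (H A B : Subgroup X) :
    stepFactor p H A B = (if (A.relIndex B).Coprime p then 1 else A.relIndex B) *
      (if (A.relIndex B).Coprime p then
        Nat.card {u : X // u ∈ B ∧ ∀ h ∈ H, h * u * h⁻¹ * u⁻¹ ∈ A} / Nat.card A else 1) := by
  unfold stepFactor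
  split_ifs <;> simp

end CfsgLib.SubnormalizerCount
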