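import Cfsg.Agent.Coprime.Sylow
import Cfsg.Agent.Coprime.External
import Mathlib.GroupTheory.Sylow
import Mathlib.GroupTheory.Nilpotent
import Mathlib.Algebra.BigOperators.Group.Finset.Basic
import Mathlib.Algebra.Order.BigOperators.Group.Finset

/-!
For a `p`-group `P` acting on a group `N` of order prime to `p`,
`(∏ x, |C_N(x)|) ^ p ≤ |N| ^ |P| * |C_N(P)| ^ (|P| (p - 1))`.
-/

set_option autoImplicit false

open scoped BigOperators

namespace CfsgLib.SubnormalizerCount

universe u v

variable {P : Type u} {N : Type v} [Group P] [Group N]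

/-- The elements of `N` fixed by all of `S`. -/
def fixSub (φ : P →* MulAut N) (S : Set P) : Subgroup N where
  carrier := {n | ∀ x ∈ S, φ x n = n}
  one_mem' := fun x _ => map_one _
  mul_mem' := fun {a b} ha hb x hx => by rw [map_mul, ha x hx, hb x hx]
  inv_mem' := fun {a} ha x hx => by rw [map_inv, ha x hx]

theorem mem_fixSub {φ : P →* MulAut N} {S : Set P} {n : N} : n ∈ fixSub φ S ↔ ∀ x ∈ S, φ x n = n := Iff.rfl

theorem fixSub_closure (φ : P →* MulAut N) (S : Set P) : fixSub φ (Subgroup.closure S : Set P) = fixSub φ S := by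
  refine le_antisymm (fun n hn x hx => hn x (Subgroup.subset_closure hx)) fun n hn x hx => ?_
  let St : Subgroup P :=
    { carrier := {x | φ x n = n}
      one_mem' := by simp
      mul_mem' := fun {a b} ha hb => by
        show φ (a * b) n = n
        rw [map_mul, MulAut.mul_apply, hb, ha]
      inv_mem' := fun {a} ha => by
        show φ a⁻¹ n = n
        rw [map_inv]
        exact (φ a).symm_apply_eq.mpr ha.symm }
  exact (Subgroup.closure_le St).mpr hn hx

/-- `Fix x` for one element. -/
abbrev fixOne (φ : P →* MulAut N) (x : P) : Subgroup N := fixSub φ {x}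

/-- `Fix P`. -/
abbrev fixAll (φ : P →* MulAut N) : Subgroup N := fixSub φ Set.univ

/-- The bound to be proved. -/
def Bound [Fintype P] (p : ℕ) (φ : P →* MulAut N) : Prop :=
  (∏ x : P, Nat.card (fixOne φ x)) ^ p ≤
    Nat.card N ^ Fintype.card P * Nat.card (fixAll φ) ^ (Fintype.card P * (p - 1))

theorem bound_of_factor [Fintype P] {p : ℕ} {φ : P →* MulAut N} {M₁ M₂ : Type*} [Group M₁] [Group M₂]
    {φ₁ : P →* MulAut M₁} {φ₂ : P →* MulAut M₂} (hN : Nat.card N = Nat.card M₁ * Nat.card M₂)
    (h : ∀ S : Set P, Nat.card (fixSub φ S) = Nat.card (fixSub φ₁ S) * Nat.card (fixSub φ₂ S))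
    (h1 : Bound p φ₁) (h2 : Bound p φ₂) : Bound p φ := by
  unfold Bound at *
  rw [Finset.prod_congr rfl (fun x _ => h {x}), Finset.prod_mul_distrib, mul_pow, h Set.univ, hN, mul_pow,
    mul_pow]
  calc _ ≤ (Nat.card M₁ ^ Fintype.card P * Nat.card (fixAll φ₁) ^ (Fintype.card P * (p - 1))) *
      (Nat.card M₂ ^ Fintype.card P * Nat.card (fixAll φ₂) ^ (Fintype.card P * (p - 1))) := Nat.mul_le_mul h1 h2
    _ = _ := by ring

/-- The action on an invariant subgroup. -/
def resAct (φ : P →* MulAut N) (M : Subgroup N) (hM : ∀ x : P, ∀ m ∈ M, φ x m ∈ M) : P →* MulAut M where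
  toFun x :=
    { toFun := fun m => ⟨φ x m, hM x m m.2⟩
      invFun := fun m => ⟨φ x⁻¹ m, hM x⁻¹ m m.2⟩
      left_inv := fun m => Subtype.ext (by simp)
      right_inv := fun m => Subtype.ext (by simp)
      map_mul' := fun a b => Subtype.ext (by simp) }
  map_one' := by ext m; simp
  map_mul' := fun a b => by ext m; simp

theorem resAct_apply (φ : P →* MulAut N) (M : Subgroup N) (hM : ∀ x : P, ∀ m ∈ M, φ x m ∈ M) (x : P) (m : M) :
    ((resAct φ M hM x m : M) : N) = φ x m := rfl

theorem card_fixSub_resAct (φ : P →* MulAut N) (M : Subgroup N) (hM : ∀ x : P, ∀ m ∈ M, φ x m ∈ M) (S : Set P) :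
    Nat.card (fixSub (resAct φ M hM) S) = Nat.card ↥(fixSub φ S ⊓ M) :=
  Nat.card_congr
    { toFun := fun m => ⟨(m.1 : N), fun x hx => congrArg Subtype.val (m.2 x hx), m.1.2⟩
      invFun := fun m => ⟨⟨m.1, m.2.2⟩, fun x hx => Subtype.ext (m.2.1 x hx)⟩
      left_inv := fun m => rfl
      right_inv := fun m => rfl }

/-- The action on an invariant quotient. -/
def quotAct (φ : P →* MulAut N) (M : Subgroup N) [M.Normal] (hM : ∀ x : P, M.map (φ x).toMonoidHom = M) :
    P →* MulAut (N ⧸ M) where
  toFun x := QuotientGroup.congr M M (φ x) (hM x)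
  map_one' := by ext m; induction m using QuotientGroup.induction_on with | H n => simp
  map_mul' := fun a b => by
    ext m
    induction m using QuotientGroup.induction_on with
    | H n => show QuotientGroup.mk' M (φ (a * b) n) = QuotientGroup.mk' M (φ a (φ b n)); simp

theorem card_eq_card_map_mul {G H : Type*} [Group G] [Group H] (f : G →* H) (A : Subgroup G) :
    Nat.card A = Nat.card (A.map f) * Nat.card ↥(A ⊓ f.ker) := by
  let g : ↥A →* H := f.comp A.subtype
  have h1 : Nat.card (↥A ⧸ g.ker) = Nat.card (A.map f) := by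
    rw [Nat.card_congr (QuotientGroup.quotientKerEquivRange g).toEquiv]
    rw [show g.range = A.map f by show (f.comp A.subtype).range = _; rw [MonoidHom.range_comp, Subgroup.range_subtype]]
  have h2 : Nat.card g.ker = Nat.card ↥(A ⊓ f.ker) := Nat.card_congr
    { toFun := fun a => ⟨(a.1 : G), a.1.2, a.2⟩
      invFun := fun a => ⟨⟨a.1, a.2.1⟩, a.2.2⟩
      left_inv := fun a => rfl
      right_inv := fun a => rfl }
  rw [Subgroup.card_eq_card_quotient_mul_card_subgroup g.ker, h1, h2]

section Coprime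

variable [Finite P] [Finite N]

theorem card_fixSub_factor (φ : P →* MulAut N) (hcop : (Nat.card P).Coprime (Nat.card N))
    (hsol : Group.IsSolvable P) (M : Subgroup N) [M.Normal] (hM : ∀ x : P, M.map (φ x).toMonoidHom = M)
    (hM' : ∀ x : P, ∀ m ∈ M, φ x m ∈ M) (S : Set P) :
    Nat.card (fixSub φ S) = Nat.card (fixSub (resAct φ M hM') S) * Nat.card (fixSub (quotAct φ M hM) S) := by
  have hmap : (fixSub φ S).map (QuotientGroup.mk' M) = fixSub (quotAct φ M hM) S := by
    apply le_antisymm
    · rintro _ ⟨n, hn, rfl⟩ x hx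
      show QuotientGroup.mk' M (φ x n) = _
      rw [hn x hx]
    · intro y hy
      obtain ⟨g, rfl⟩ := QuotientGroup.mk'_surjective M y
      set B := Subgroup.closure S
      have hy' : QuotientGroup.mk' M g ∈ fixSub (quotAct φ M hM) (B : Set P) := by rw [fixSub_closure]; exact hy
      obtain ⟨m, hm, hfix⟩ := CfsgLib.Coprime.exists_fixed_mul_of_action (φ.comp B.subtype)
        (hcop.coprime_dvd_left (Subgroup.card_subgroup_dvd_card B))
        (Or.inl (haveI := hsol; inferInstance)) M (fun b => hM' b) (g := g) fun b =>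
          QuotientGroup.eq.mp (hy' b b.2).symm
      refine ⟨g * m, fun x hx => hfix ⟨x, Subgroup.subset_closure hx⟩, ?_⟩
      rw [map_mul, show QuotientGroup.mk' M m = 1 from (QuotientGroup.eq_one_iff m).mpr hm, mul_one]
  rw [card_eq_card_map_mul (QuotientGroup.mk' M) (fixSub φ S), hmap, QuotientGroup.ker_mk',
    card_fixSub_resAct, mul_comm]

/-- Sylow subgroups of fixed-point subgroups. -/
theorem card_inf_invariant_sylow (φ : P →* MulAut N) (hcop : (Nat.card P).Coprime (Nat.card N))
    (hsol : Group.IsSolvable P) {q : ℕ} [Fact q.Prime] (Q : Sylow q N)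
    (hQ : ∀ x : P, ∀ n ∈ (Q : Subgroup N), φ x n ∈ (Q : Subgroup N)) (S : Set P) :
    Nat.card ↥(fixSub φ S ⊓ (Q : Subgroup N)) = q ^ (Nat.card (fixSub φ S)).factorization q := by
  set B := Subgroup.closure S
  set ψ : ↥B →* MulAut N := φ.comp B.subtype
  haveI := CfsgLib.Coprime.finite_semidirect ψ
  set ι := SemidirectProduct.inl (φ := ψ)
  have hι : Function.Injective ι := SemidirectProduct.inl_injective
  set A := (SemidirectProduct.inr (φ := ψ)).range
  have hBcop : (Nat.card ↥B).Coprime (Nat.card N) := hcop.coprime_dvd_left (Subgroup.card_subgroup_dvd_card B)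
  set G := (⊤ : Subgroup N).map ι with hG
  have hfix : (fixSub φ S).map ι = G ⊓ Subgroup.centralizer (A : Set (N ⋊[ψ] ↥B)) := by
    ext z
    constructor
    · rintro ⟨n, hn, rfl⟩
      refine ⟨⟨n, trivial, rfl⟩, (CfsgLib.Coprime.inl_mem_centralizer_range_inr_iff ψ).mpr fun b => ?_⟩
      have hn' : n ∈ fixSub φ (B : Set P) := by rw [fixSub_closure]; exact hn
      exact hn' b b.2
    · rintro ⟨⟨n, -, rfl⟩, hz⟩
      exact ⟨n, fun x hx => (CfsgLib.Coprime.inl_mem_centralizer_range_inr_iff ψ).mp hz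
        ⟨x, Subgroup.subset_closure hx⟩, rfl⟩
  obtain ⟨U⟩ : Nonempty (Sylow q ↥(fixSub φ S)) := inferInstance
  obtain ⟨V, hV⟩ := CfsgLib.Coprime.exists_sylow_map_eq (p := q) (G := G) (U := (Q : Subgroup N).map ι)
    (Subgroup.map_mono le_top) (Q.isPGroup'.map ι) (fun V hVG hQV hVp => by
      have h1 : V.comap ι = (Q : Subgroup N) := Q.3 (hVp.comap_of_injective ι hι) (fun n hn => hQV ⟨n, hn, rfl⟩)
      rw [← h1, Subgroup.map_comap_eq_self (hVG.trans (Subgroup.map_le_range ι ⊤))])
  obtain ⟨c, -, hc⟩ := CfsgLib.Coprime.isPGroup_le_inf_centralizer (A := A) (G := G)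
    (CfsgLib.Coprime.inr_le_normalizer_map_inl ψ (H := (⊤ : Subgroup N)) (fun _ _ _ => trivial))
    (by rw [CfsgLib.Coprime.card_range_inr, CfsgLib.Coprime.card_map_inl, Subgroup.card_top]; exact hBcop)
    (Or.inl (CfsgLib.Coprime.isSolvable_range_inr ψ (haveI := hsol; inferInstance))) V
    (by rw [hV]; exact CfsgLib.Coprime.inr_le_normalizer_map_inl ψ (fun b n hn => hQ b n hn))
    (U := ((U : Subgroup ↥(fixSub φ S)).map (fixSub φ S).subtype).map ι) ((U.isPGroup'.map _).map _)
    (hfix ▸ Subgroup.map_mono (Subgroup.map_subtype_le _))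
  rw [hV] at hc
  have hge : Nat.card ↥(U : Subgroup ↥(fixSub φ S)) ≤ Nat.card ↥(fixSub φ S ⊓ (Q : Subgroup N)) := by
    have h1 := Subgroup.card_le_of_le hc
    rw [Subgroup.card_map_of_injective (MulAut.conj c).injective, Subgroup.card_map_of_injective hι,
      Subgroup.card_map_of_injective (fixSub φ S).subtype_injective] at h1
    refine h1.trans ?_
    rw [← Subgroup.card_map_of_injective hι (K := fixSub φ S ⊓ (Q : Subgroup N)),
      Subgroup.map_inf _ _ _ hι, hfix]
    exact Subgroup.card_le_of_le fun z hz =>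
      ⟨⟨Subgroup.map_mono le_top hz.1, hz.2⟩, hz.1⟩
  rw [U.card_eq_multiplicity] at hge
  refine le_antisymm ?_ hge
  obtain ⟨k, hk⟩ := IsPGroup.iff_card.mp (Q.isPGroup'.to_le (inf_le_right (a := fixSub φ S)))
  rw [hk]
  exact Nat.pow_le_pow_right (Fact.out : q.Prime).pos (((Fact.out : q.Prime).pow_dvd_iff_le_factorization
    Nat.card_pos.ne').mp (hk ▸ Subgroup.card_dvd_of_le inf_le_left))

end Coprime

/-- Elements in distinct twisted eigen-subgroups of commuting automorphisms are independent. -/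
theorem indep_eigen {V : Type*} [CommGroup V] (σ τ : MulAut V) (hστ : σ * τ = τ * σ) {p : ℕ}
    (hfpf : ∀ i j : ℕ, i < p → j < p → i ≠ j → ∀ v : V, (τ ^ i) v = (τ ^ j) v → v = 1) :
    ∀ (T : Finset ℕ) (v : ℕ → V), (∀ i ∈ T, i < p) → (∀ i ∈ T, σ (v i) = (τ ^ i) (v i)) →
      ∏ i ∈ T, v i = 1 → ∀ i ∈ T, v i = 1 := by
  intro T
  induction T using Finset.induction_on with
  | empty => intro v _ _ _ i hi; simp at hi
  | @insert j T hj ih =>
    intro v hlt heig hprod
    have hcomm : ∀ (m : ℕ) (x : V), σ ((τ ^ m) x) = (τ ^ m) (σ x) := fun m x => by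
      rw [← MulAut.mul_apply, ← MulAut.mul_apply, Commute.pow_right hστ m]
    let w : ℕ → V := fun i => σ (v i) * ((τ ^ j) (v i))⁻¹
    have hw : ∏ i ∈ T, w i = 1 := by
      have h1 : ∏ i ∈ insert j T, w i = 1 := by
        rw [Finset.prod_mul_distrib, Finset.prod_inv_distrib, ← map_prod, ← map_prod, hprod, map_one, map_one,
          inv_one, one_mul]
      rwa [Finset.prod_insert hj, show w j = 1 by simp [w, heig j (Finset.mem_insert_self j T)], one_mul] at h1
    have hwe : ∀ i ∈ T, σ (w i) = (τ ^ i) (w i) := by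
      intro i hi
      have hi' := heig i (Finset.mem_insert_of_mem hi)
      show σ (σ (v i) * ((τ ^ j) (v i))⁻¹) = (τ ^ i) (σ (v i) * ((τ ^ j) (v i))⁻¹)
      simp only [map_mul, map_inv, hi', hcomm, ← MulAut.mul_apply, ← pow_add, add_comm i j]
    have hT : ∀ i ∈ T, v i = 1 := by
      intro i hi
      have h1 := ih w (fun i hi => hlt i (Finset.mem_insert_of_mem hi)) hwe hw i hi
      simp only [w, heig i (Finset.mem_insert_of_mem hi), mul_inv_eq_one] at h1
      exact hfpf i j (hlt i (Finset.mem_insert_of_mem hi)) (hlt j (Finset.mem_insert_self j T))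
        (fun h => hj (h ▸ hi)) _ h1
    intro i hi
    rcases Finset.mem_insert.mp hi with rfl | hi
    · rw [Finset.prod_insert hj, Finset.prod_eq_one hT, mul_one] at hprod
      exact hprod
    · exact hT i hi

variable {p : ℕ} [hp : Fact p.Prime]

theorem bound_of_ker_ne_bot [Fintype P] [Finite N] (φ : P →* MulAut N) [Fintype φ.range]
    (h : Bound p (φ.range.subtype : ↥φ.range →* MulAut N)) : Bound p φ := by
  classical
  unfold Bound at *
  set ψ := (φ.range.subtype : ↥φ.range →* MulAut N)
  have hall : fixAll φ = fixAll ψ := by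
    ext n
    exact ⟨fun hn y _ => by obtain ⟨x, hx⟩ := y.2; show (y : MulAut N) n = n; rw [← hx]; exact hn x trivial,
      fun hn x _ => hn ⟨φ x, x, rfl⟩ trivial⟩
  have hone : ∀ x, fixOne φ x = fixOne ψ (φ.rangeRestrict x) := by
    intro x; ext n; simp [mem_fixSub, ψ]
  have hfib : ∀ y : ↥φ.range, (Finset.univ.filter fun x => φ.rangeRestrict x = y).card = Nat.card φ.ker := by
    intro y
    obtain ⟨x0, rfl⟩ := φ.rangeRestrict_surjective y
    rw [← Fintype.card_subtype, ← Nat.card_eq_fintype_card]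
    refine Nat.card_congr
      { toFun := fun x => ⟨x.1 * x0⁻¹, by
          have := congrArg Subtype.val x.2
          simp only [MonoidHom.coe_rangeRestrict] at this
          simp [MonoidHom.mem_ker, this]⟩
        invFun := fun k => ⟨k.1 * x0, Subtype.ext (by simp [MonoidHom.mem_ker.mp k.2])⟩
        left_inv := fun x => Subtype.ext (by simp)
        right_inv := fun k => Subtype.ext (by simp) }
  have hprod : ∏ x : P, Nat.card (fixOne φ x) = (∏ y : ↥φ.range, Nat.card (fixOne ψ y)) ^ Nat.card φ.ker := by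
    rw [Finset.prod_congr rfl (fun x _ => by rw [hone x]),
      ← Finset.prod_fiberwise_of_maps_to (t := Finset.univ) (g := φ.rangeRestrict) (fun _ _ => Finset.mem_univ _),
      ← Finset.prod_pow]
    refine Finset.prod_congr rfl fun y _ => ?_
    rw [Finset.prod_congr rfl (fun x hx => by rw [(Finset.mem_filter.mp hx).2]), Finset.prod_const, hfib]
  have hcard : Fintype.card P = Fintype.card ↥φ.range * Nat.card φ.ker := by
    rw [← Nat.card_eq_fintype_card, ← Nat.card_eq_fintype_card, Subgroup.card_eq_card_quotient_mul_card_subgroup φ.ker,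
      Nat.card_congr (QuotientGroup.quotientKerEquivRange φ).toEquiv]
  rw [hprod, hcard, hall, ← pow_mul, mul_comm (Nat.card φ.ker) p, pow_mul, mul_right_comm _ _ (p - 1),
    pow_mul (Nat.card N), pow_mul _ (Fintype.card ↥φ.range * (p - 1)), ← mul_pow]
  exact Nat.pow_le_pow_left h _

/-- Fixed-point-free central element. -/
theorem bound_of_fpf [Fintype P] {V : Type v} [CommGroup V] [Finite V] (φ : P →* MulAut V) {z : P}
    (hz : ∀ x : P, x * z = z * x) (hzo : orderOf z = p) (hfix : ∀ v : V, φ z v = v → v = 1) : Bound p φ := by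
  classical
  unfold Bound
  refine le_trans ?_ (Nat.le_mul_of_pos_right _ (pow_pos Nat.card_pos _))
  have hcoset : ∀ x : P, ∏ i ∈ Finset.range p, Nat.card (fixOne φ (x * z ^ i)) ≤ Nat.card V := by
    intro x
    rw [← Fin.prod_univ_eq_prod_range (fun i => Nat.card (fixOne φ (x * z ^ i))) p, ← Nat.card_pi]
    let F : (∀ i : Fin p, ↥(fixOne φ (x * z ^ (i : ℕ)))) → V := fun v => ∏ i, (v i : V)
    refine Nat.card_le_card_of_injective F fun a b hab => ?_
    funext i
    set τ := φ z⁻¹ with hτ
    have hfpf : ∀ i j : ℕ, i < p → j < p → i ≠ j → ∀ v : V, (τ ^ i) v = (τ ^ j) v → v = 1 := by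
      have main : ∀ i j : ℕ, i < j → j < p → ∀ v : V, (τ ^ i) v = (τ ^ j) v → v = 1 := by
        intro i j hij hj v hv
        rw [show j = i + (j - i) by omega, pow_add, MulAut.mul_apply] at hv
        have hv' : (τ ^ (j - i)) v = v := ((τ ^ i).injective hv).symm
        obtain ⟨m, hm⟩ := exists_pow_eq_self_of_coprime (x := z⁻¹) (n := j - i) (by
          rw [orderOf_inv, hzo]
          exact (Nat.coprime_of_lt_prime (by omega) (by omega) hp.out).symm)
        refine hfix v ?_
        have h1 : ∀ k : ℕ, ((τ ^ (j - i)) ^ k) v = v := by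
          intro k
          induction k with
          | zero => rfl
          | succ k ih => rw [pow_succ, MulAut.mul_apply, hv', ih]
        have h2 : φ z⁻¹ v = v := by
          conv_lhs => rw [← hm]
          rw [map_pow, map_pow]; exact h1 m
        calc φ z v = φ z (φ z⁻¹ v) := by rw [h2]
          _ = v := by rw [← MulAut.mul_apply, ← map_mul, mul_inv_cancel, map_one, MulAut.one_apply]
      intro i j hi hj hne v hv
      rcases Nat.lt_or_gt_of_ne hne with h | h
      · exact main i j h hj v hv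
      · exact main j i h hi v hv.symm
    let w : ℕ → V := fun k => if h : k < p then (a ⟨k, h⟩ : V) * ((b ⟨k, h⟩ : V))⁻¹ else 1
    have hw := indep_eigen (φ x) τ (by rw [hτ, ← map_mul, ← map_mul]; congr 1; exact (Commute.inv_right (hz x)).eq)
      hfpf (Finset.range p) w (fun k hk => Finset.mem_range.mp hk) (fun k hk => ?_) ?_ i
      (Finset.mem_range.mpr i.2)
    · simp only [w, dif_pos i.2, mul_inv_eq_one] at hw
      exact Subtype.ext hw
    · have hk' := Finset.mem_range.mp hk
      have hm : w k ∈ fixOne φ (x * z ^ k) := by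
        simp only [w, dif_pos hk']
        exact mul_mem (a ⟨k, hk'⟩).2 (inv_mem (b ⟨k, hk'⟩).2)
      have he := hm _ (Set.mem_singleton _)
      rw [show x * z ^ k = z ^ k * x from (Commute.pow_right (hz x) k).eq, map_mul, MulAut.mul_apply] at he
      rw [hτ, ← map_pow, inv_pow, map_inv]
      exact ((φ (z ^ k)).eq_symm_apply).mpr he
    · rw [Finset.prod_range]
      simp only [w, Fin.is_lt, dite_true, Finset.prod_mul_distrib, Finset.prod_inv_distrib]
      exact mul_inv_eq_one.mpr hab
  have hshift : ∀ i : ℕ, ∏ x : P, Nat.card (fixOne φ (x * z ^ i)) = ∏ x : P, Nat.card (fixOne φ x) := fun i =>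
    Fintype.prod_equiv (Equiv.mulRight (z ^ i)) _ _ (fun x => rfl)
  calc (∏ x : P, Nat.card (fixOne φ x)) ^ p
      = ∏ i ∈ Finset.range p, ∏ x : P, Nat.card (fixOne φ (x * z ^ i)) := by
        rw [Finset.prod_congr rfl (fun i _ => hshift i), Finset.prod_const, Finset.card_range]
    _ = ∏ x : P, ∏ i ∈ Finset.range p, Nat.card (fixOne φ (x * z ^ i)) := Finset.prod_comm
    _ ≤ ∏ _x : P, Nat.card V := Finset.prod_le_prod' fun x _ => hcoset x
    _ = Nat.card V ^ Fintype.card P := by rw [Finset.prod_const, Finset.card_univ]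

theorem bound_comm : ∀ (n : ℕ) (P : Type v) [Group P] [Fintype P] (V : Type v) [CommGroup V] [Finite V]
    (φ : P →* MulAut V), Fintype.card P = n → IsPGroup p P → ¬ p ∣ Nat.card V → Bound p φ := by
  intro n
  induction n using Nat.strong_induction_on with
  | _ n IH =>
  intro P _ _ V _ _ φ hn hP hV
  classical
  haveI : Fintype φ.range := Fintype.ofFinite _
  have smaller : ∀ (W : Type v) [CommGroup W] [Finite W] (ψ : P →* MulAut W), ¬ p ∣ Nat.card W →
      ψ.ker ≠ ⊥ → Bound p ψ := by
    intro W _ _ ψ hW hne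
    haveI : Fintype ψ.range := Fintype.ofFinite _
    refine bound_of_ker_ne_bot ψ (IH _ ?_ ↥ψ.range W _ rfl (hP.of_surjective ψ.rangeRestrict ψ.rangeRestrict_surjective) hW)
    rw [← hn, ← Nat.card_eq_fintype_card, ← Nat.card_eq_fintype_card, ← Nat.card_congr (QuotientGroup.quotientKerEquivRange ψ).toEquiv,
      Subgroup.card_eq_card_quotient_mul_card_subgroup ψ.ker]
    exact lt_mul_of_one_lt_right Nat.card_pos ((Subgroup.one_lt_card_iff_ne_bot ψ.ker).mpr hne)
  by_cases hker : φ.ker ≠ ⊥
  · exact smaller V φ hV hker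
  push Not at hker
  rcases subsingleton_or_nontrivial P with hsub | hnt
  · have h1 : Fintype.card P = 1 := Fintype.card_eq_one_iff.mpr ⟨1, fun y => Subsingleton.elim y 1⟩
    have hfull : ∀ S : Set P, fixSub φ S = ⊤ := fun S => top_le_iff.mp fun v _ x _ => by
      rw [Subsingleton.elim x 1, map_one, MulAut.one_apply]
    unfold Bound fixAll
    rw [Finset.prod_congr rfl (fun x _ => by rw [show fixOne φ x = ⊤ from hfull _]), hfull, Finset.prod_const,
      Finset.card_univ, h1, Subgroup.card_top, one_mul, pow_one, ← pow_succ',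
      Nat.sub_add_cancel hp.out.one_le]
  obtain ⟨z, hz, hzo⟩ : ∃ z : P, (∀ x : P, x * z = z * x) ∧ orderOf z = p := by
    haveI := hP.center_nontrivial
    obtain ⟨k, hk⟩ := IsPGroup.iff_card.mp (hP.to_subgroup (Subgroup.center P))
    have hk0 : k ≠ 0 := fun h => by
      have := Finite.one_lt_card (α := ↥(Subgroup.center P))
      rw [hk, h, pow_zero] at this
      exact lt_irrefl _ this
    obtain ⟨z, hz⟩ := exists_prime_orderOf_dvd_card' (G := ↥(Subgroup.center P)) p (hk ▸ dvd_pow_self p hk0)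
    exact ⟨z, fun x => Subgroup.mem_center_iff.mp z.2 x, by rw [Subgroup.orderOf_coe]; exact hz⟩
  set τ := φ z with hτ
  have hτp : τ ^ p = 1 := by rw [hτ, ← map_pow, ← hzo, pow_orderOf_eq_one, map_one]
  let nm : V →* V :=
    { toFun := fun v => ∏ i ∈ Finset.range p, (τ ^ i) v
      map_one' := by simp
      map_mul' := fun a b => by simp [Finset.prod_mul_distrib] }
  have hnm : ∀ v, nm v = ∏ i ∈ Finset.range p, (τ ^ i) v := fun v => rfl
  have hτnm : ∀ v, τ (nm v) = nm v := by
    intro v
    have h1 := Finset.prod_range_succ' (fun i => (τ ^ i) v) p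
    rw [Finset.prod_range_succ, hτp, MulAut.one_apply] at h1
    simp only [pow_zero, MulAut.one_apply, mul_left_inj] at h1
    rw [hnm, map_prod, h1]
    exact Finset.prod_congr rfl fun i _ => by rw [pow_succ', MulAut.mul_apply]
  have heq : ∀ (x : P) (v : V), nm (φ x v) = φ x (nm v) := by
    intro x v
    rw [hnm, hnm, map_prod]
    refine Finset.prod_congr rfl fun i _ => ?_
    rw [hτ, ← map_pow, ← MulAut.mul_apply, ← map_mul, ← (Commute.pow_right (hz x) i).eq, map_mul, MulAut.mul_apply]
  set N0 : Subgroup V := fixOne φ z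
  set N1 : Subgroup V := nm.ker
  have hnm0 : ∀ v ∈ N0, nm v = v ^ p := by
    intro v hv
    have hvi : ∀ i : ℕ, (τ ^ i) v = v := by
      intro i
      induction i with
      | zero => rfl
      | succ i ih => rw [pow_succ, MulAut.mul_apply, hv z (Set.mem_singleton _), ih]
    rw [hnm, Finset.prod_congr rfl (fun i _ => hvi i), Finset.prod_const, Finset.card_range]
  have hcop : (Nat.card V).Coprime p := ((hp.out.coprime_iff_not_dvd).mpr hV).symm
  have hroot : ∀ v : V, v ^ p = 1 → v = 1 := fun v hv => (powCoprime hcop).injective (by simpa using hv)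
  have hI0 : ∀ x : P, ∀ v ∈ N0, φ x v ∈ N0 := by
    intro x v hv y hy
    rw [Set.mem_singleton_iff] at hy
    subst hy
    rw [← MulAut.mul_apply, ← map_mul, ← hz x, map_mul, MulAut.mul_apply, hv y (Set.mem_singleton _)]
  have hI1 : ∀ x : P, ∀ v ∈ N1, φ x v ∈ N1 := by
    intro x v hv
    rw [MonoidHom.mem_ker, heq, MonoidHom.mem_ker.mp hv, map_one]
  have hdisj : ∀ v ∈ N0, v ∈ N1 → v = 1 := fun v h0 h1 => hroot v (by rw [← hnm0 v h0]; exact h1)
  -- decomposition
  have hdec : ∀ v : V, ∃ a ∈ N0, ∃ b ∈ N1, a * b = v := by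
    intro v
    obtain ⟨a, ha⟩ := (powCoprime hcop).surjective (nm v)
    have ha' : a ^ p = nm v := ha
    have ha0 : a ∈ N0 := by
      intro y hy
      rw [Set.mem_singleton_iff] at hy
      subst hy
      refine (powCoprime hcop).injective ?_
      show (τ a) ^ p = a ^ p
      rw [← map_pow, ha', hτnm]
    refine ⟨a, ha0, a⁻¹ * v, ?_, mul_inv_cancel_left a v⟩
    rw [MonoidHom.mem_ker, map_mul, map_inv, hnm0 a ha0, ha', inv_mul_cancel]
  have hfac : ∀ S : Set P, Nat.card (fixSub φ S) =
      Nat.card (fixSub (resAct φ N0 hI0) S) * Nat.card (fixSub (resAct φ N1 hI1) S) := by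
    intro S
    rw [card_fixSub_resAct, card_fixSub_resAct, ← Nat.card_prod]
    refine (Nat.card_congr (Equiv.ofBijective (fun ab : ↥(fixSub φ S ⊓ N0) × ↥(fixSub φ S ⊓ N1) =>
      (⟨(ab.1 : V) * ab.2, mul_mem ab.1.2.1 ab.2.2.1⟩ : ↥(fixSub φ S))) ⟨?_, ?_⟩)).symm
    · rintro ⟨⟨a, ha⟩, ⟨b, hb⟩⟩ ⟨⟨a', ha'⟩, ⟨b', hb'⟩⟩ h
      have h1 : a * b = a' * b' := congrArg Subtype.val h
      have h2 : a'⁻¹ * a = b' * b⁻¹ := by rw [eq_mul_inv_iff_mul_eq, mul_assoc, h1, inv_mul_cancel_left]
      have h3 := hdisj _ (mul_mem (inv_mem ha'.2) ha.2) (h2 ▸ mul_mem hb'.2 (inv_mem hb.2))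
      have : a' = a := inv_mul_eq_one.mp h3
      subst this
      simp [mul_left_cancel h1]
    · rintro ⟨v, hv⟩
      obtain ⟨a, ha, b, hb, rfl⟩ := hdec v
      have key : ∀ x ∈ S, φ x a = a := by
        intro x hx
        have h1 := hv x hx
        rw [map_mul] at h1
        have h2 : (φ x a) * a⁻¹ = b * (φ x b)⁻¹ := by
          rw [eq_mul_inv_iff_mul_eq, mul_right_comm, h1, mul_right_comm, mul_inv_cancel, one_mul]
        exact mul_inv_eq_one.mp (hdisj _ (mul_mem (hI0 x a ha) (inv_mem ha))
          (h2 ▸ mul_mem hb (inv_mem (hI1 x b hb))))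
      exact ⟨(⟨a, key, ha⟩, ⟨b, fun x hx => by
        have h1 := hv x hx
        rw [map_mul, key x hx] at h1
        exact mul_left_cancel h1, hb⟩), rfl⟩
  have hcardV : Nat.card V = Nat.card N0 * Nat.card N1 := by
    have h := hfac ∅
    rw [card_fixSub_resAct, card_fixSub_resAct] at h
    have ht : fixSub φ (∅ : Set P) = ⊤ := top_le_iff.mp fun v _ x hx => hx.elim
    rwa [ht, Subgroup.card_top, top_inf_eq, top_inf_eq] at h
  refine bound_of_factor hcardV hfac ?_ ?_
  · refine smaller ↥N0 _ (fun h => hV (h.trans (Subgroup.card_subgroup_dvd_card N0))) fun hb => ?_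
    have : z ∈ (resAct φ N0 hI0).ker := by
      ext a
      exact a.2 z (Set.mem_singleton _)
    rw [hb, Subgroup.mem_bot] at this
    rw [this, orderOf_one] at hzo
    exact hp.out.ne_one hzo.symm
  · exact bound_of_fpf _ hz hzo fun v hv => Subtype.ext
      (hdisj v (fun y hy => by rw [Set.mem_singleton_iff] at hy; subst hy; exact congrArg Subtype.val hv) v.2)

theorem bound_qGroup {q : ℕ} [Fact q.Prime] : ∀ (n : ℕ) (P : Type v) [Group P] [Fintype P] (N : Type v) [Group N]
    [Finite N] (φ : P →* MulAut N), Nat.card N = n → IsPGroup p P → IsPGroup q N → ¬ p ∣ Nat.card N →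
    Bound p φ := by
  intro n
  induction n using Nat.strong_induction_on with
  | _ n IH =>
  intro P _ _ N _ _ φ hn hP hN hpN
  set Z := Subgroup.center N
  by_cases hZ : Z = ⊤
  · letI : CommGroup N := Group.commGroupOfCenterEqTop hZ
    exact bound_comm _ P N φ rfl hP hpN
  haveI : Nontrivial N := by
    by_contra hc
    rw [not_nontrivial_iff_subsingleton] at hc
    exact hZ (Subsingleton.elim _ _)
  haveI := hN.center_nontrivial
  haveI := hP.isNilpotent
  have hcop : (Nat.card P).Coprime (Nat.card N) := by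
    obtain ⟨k, hk⟩ := IsPGroup.iff_card.mp hP
    rw [hk]
    exact ((hp.out.coprime_iff_not_dvd).mpr hpN).pow_left k
  have hM : ∀ x : P, Z.map (φ x).toMonoidHom = Z := fun x =>
    Subgroup.characteristic_iff_map_eq.mp inferInstance (φ x)
  have hM' : ∀ x : P, ∀ m ∈ Z, φ x m ∈ Z := fun x m hm => (hM x) ▸ ⟨m, hm, rfl⟩
  have h1 : Nat.card N = Nat.card Z * Nat.card (N ⧸ Z) := by
    rw [Subgroup.card_eq_card_quotient_mul_card_subgroup Z, mul_comm]
  refine bound_of_factor h1 (card_fixSub_factor φ hcop inferInstance Z hM hM') ?_ ?_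
  · refine IH _ ?_ P ↥Z _ rfl hP (hN.to_subgroup Z) fun h => hpN (h.trans (Subgroup.card_subgroup_dvd_card Z))
    exact hn ▸ lt_of_le_of_ne (Subgroup.card_le_card_group Z) (fun h => hZ (Subgroup.eq_top_of_card_eq Z h))
  · refine IH _ ?_ P (N ⧸ Z) _ rfl hP (hN.to_quotient Z) fun h => hpN (h1 ▸ h.mul_left _)
    rw [← hn, h1]
    exact lt_mul_of_one_lt_left Nat.card_pos (Finite.one_lt_card_iff_nontrivial.mpr inferInstance)

/-- The bound. -/
theorem bound (P : Type v) [Group P] [Fintype P] (N : Type v) [Group N] [Finite N] (φ : P →* MulAut N)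
    (hP : IsPGroup p P) (hpN : ¬ p ∣ Nat.card N) : Bound p φ := by
  classical
  haveI := hP.isNilpotent
  have hcop : (Nat.card P).Coprime (Nat.card N) := by
    obtain ⟨k, hk⟩ := IsPGroup.iff_card.mp hP
    rw [hk]
    exact ((hp.out.coprime_iff_not_dvd).mpr hpN).pow_left k
  have hprime : ∀ q ∈ (Nat.card N).primeFactors,
      (∏ x : P, q ^ (Nat.card (fixOne φ x)).factorization q) ^ p ≤
        (q ^ (Nat.card N).factorization q) ^ Fintype.card P *
          (q ^ (Nat.card (fixAll φ)).factorization q) ^ (Fintype.card P * (p - 1)) := by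
    intro q hq
    haveI : Fact q.Prime := ⟨Nat.prime_of_mem_primeFactors hq⟩
    obtain ⟨Q, hQ⟩ := CfsgLib.Coprime.exists_invariant_sylow_action (p := q) φ hcop (Or.inl inferInstance)
    have h := bound_qGroup (q := q) _ P ↥(Q : Subgroup N) (resAct φ (Q : Subgroup N) hQ) rfl hP Q.isPGroup'
      (fun h => hpN (h.trans (Subgroup.card_subgroup_dvd_card _)))
    unfold Bound at h
    simp only [card_fixSub_resAct, card_inf_invariant_sylow φ hcop inferInstance Q hQ, Q.card_eq_multiplicity] at h
    exact h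
  unfold Bound
  have hdec : ∀ m : ℕ, m ≠ 0 → m ∣ Nat.card N → m = ∏ q ∈ (Nat.card N).primeFactors, q ^ m.factorization q := by
    intro m hm hd
    conv_lhs => rw [← Nat.prod_factorization_pow_eq_self hm]
    refine Finset.prod_subset (fun q hq => ?_) fun q _ hq => by simp [Finsupp.notMem_support_iff.mp hq]
    rw [Nat.support_factorization] at hq
    exact Nat.primeFactors_mono hd Nat.card_pos.ne' hq
  have hfixd : ∀ S : Set P, Nat.card (fixSub φ S) =
      ∏ q ∈ (Nat.card N).primeFactors, q ^ (Nat.card (fixSub φ S)).factorization q := fun S =>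
    hdec _ Nat.card_pos.ne' (Subgroup.card_subgroup_dvd_card _)
  rw [Finset.prod_congr rfl (fun x _ => hfixd {x}), Finset.prod_comm, ← Finset.prod_pow, hfixd Set.univ]
  refine (Finset.prod_le_prod' fun q hq => hprime q hq).trans (le_of_eq ?_)
  rw [Finset.prod_mul_distrib, Finset.prod_pow, Finset.prod_pow, ← hdec (Nat.card N) Nat.card_pos.ne' dvd_rfl]

end CfsgLib.SubnormalizerCount
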