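import Cfsg.Agent.SubnormalizerCount.Series
import Cfsg.Agent.SubnormalizerCount.FixCount

/-!
Sylow subgroups containing a given element, along a normal series with `p` and `p'` factors.
-/

set_option autoImplicit false

open scoped BigOperators Pointwise

namespace CfsgLib.SubnormalizerCount

universe u

variable {X Y : Type*} [Group X] [Group Y] [Finite X] {p : ℕ} [Fact p.Prime]

/-- The number of Sylow subgroups containing `x`. -/
noncomputable def sylowCount (p : ℕ) (x : X) : ℕ := Nat.card {Q : Sylow p X // x ∈ (Q : Subgroup X)}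

theorem sylowCount_le_of_pKer (f : X →* Y) (hf : Function.Surjective f) (hk : IsPGroup p f.ker) (x : X) :
    sylowCount p x ≤ sylowCount p (f x) := by
  haveI : Finite Y := Finite.of_surjective f hf
  refine Nat.card_le_card_of_injective (fun Q => ⟨Q.1.mapSurjective hf, by
    rw [Sylow.coe_mapSurjective]; exact ⟨x, Q.2, rfl⟩⟩) fun Q Q' h => ?_
  have h' := congrArg (fun S : {S : Sylow p Y // f x ∈ (S : Subgroup Y)} => (S.1 : Subgroup Y).comap f) h
  simp only [Sylow.coe_mapSurjective] at h'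
  rw [Subgroup.comap_map_eq, Subgroup.comap_map_eq] at h'
  have hle : ∀ S : Sylow p X, f.ker ≤ (S : Subgroup X) := fun S =>
    (S.3 (S.isPGroup'.to_sup_of_normal_right hk) le_sup_left).le.trans' le_sup_right
  rw [sup_eq_left.mpr (hle Q.1), sup_eq_left.mpr (hle Q'.1)] at h'
  exact Subtype.ext (Sylow.ext h')

theorem sylowCount_mul_le (f : X →* Y) (hf : Function.Surjective f) (hk : (Nat.card f.ker).Coprime p) (x : X)
    (m : ℕ) (hm : ∀ Q : Sylow p X, Nat.card ↥(f.ker ⊓ Subgroup.centralizer ((Q : Subgroup X) : Set X)) = m) :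
    sylowCount p x * m ≤ Nat.card ↥(f.ker ⊓ Subgroup.centralizer ({x} : Set X)) * sylowCount p (f x) := by
  classical
  haveI : Finite Y := Finite.of_surjective f hf
  let A := {Q : Sylow p X // x ∈ (Q : Subgroup X)}
  let B := {Q : Sylow p Y // f x ∈ (Q : Subgroup Y)}
  let Φ : A → B := fun Q => ⟨Q.1.mapSurjective hf, by rw [Sylow.coe_mapSurjective]; exact ⟨x, Q.2, rfl⟩⟩
  haveI := Fintype.ofFinite B
  set K := f.ker ⊓ Subgroup.centralizer ({x} : Set X)
  have hdisj : ∀ (Q : Sylow p X) (d : X), d ∈ (Q : Subgroup X) → f d = 1 → d = 1 := by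
    intro Q d hd hfd
    obtain ⟨k, hk'⟩ := Q.isPGroup' ⟨d, hd⟩
    refine orderOf_eq_one_iff.mp (Nat.eq_one_of_dvd_coprimes (hk.pow_right k)
      (Subgroup.orderOf_dvd_natCard _ (MonoidHom.mem_ker.mpr hfd)) (orderOf_dvd_of_pow_eq_one ?_))
    simpa using congrArg Subtype.val hk'
  have hfib : ∀ Qb : B, Nat.card {Q : A // Φ Q = Qb} * m ≤ Nat.card K := by
    intro Qb
    rcases isEmpty_or_nonempty {Q : A // Φ Q = Qb} with h | ⟨⟨Q0, hQ0⟩⟩
    · simp
    set K0 := f.ker ⊓ Subgroup.centralizer ((Q0.1 : Subgroup X) : Set X)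
    have hK0 : K0 ≤ K := inf_le_inf_left _ (Subgroup.centralizer_le (Set.singleton_subset_iff.mpr Q0.2))
    have hex : ∀ Q : {Q : A // Φ Q = Qb}, ∃ n ∈ K, n • Q0.1 = Q.1.1 := by
      intro Q
      have himg : (Q.1.1 : Subgroup X).map f = (Q0.1 : Subgroup X).map f := by
        have h := congrArg (fun S : B => (S.1 : Subgroup Y)) (Q.2.trans hQ0.symm)
        simpa [Φ, Sylow.coe_mapSurjective] using h
      set R := ((Q0.1 : Subgroup X).map f).comap f
      have h0R : (Q0.1 : Subgroup X) ≤ R := Subgroup.le_comap_map f _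
      have hQR : (Q.1.1 : Subgroup X) ≤ R := by
        show _ ≤ ((Q0.1 : Subgroup X).map f).comap f
        rw [← himg]; exact Subgroup.le_comap_map f _
      obtain ⟨r, hr⟩ := MulAction.exists_smul_eq ↥R (Q0.1.subtype h0R) (Q.1.1.subtype hQR)
      obtain ⟨d, hd, hdr⟩ : f (r : X) ∈ (Q0.1 : Subgroup X).map f := r.2
      have h1 : (r : X) • Q0.1 = Q.1.1 := by
        apply Sylow.ext
        have h2 := congrArg (fun S : Sylow p ↥R => (S : Subgroup ↥R).map R.subtype) hr
        simp only [Sylow.coe_subgroup_smul, Sylow.coe_subtype] at h2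
        rw [show (MulAut.conj r • (Q0.1 : Subgroup X).subgroupOf R : Subgroup ↥R).map R.subtype =
            (((Q0.1 : Subgroup X).subgroupOf R).map R.subtype).map (MulAut.conj (r : X)).toMonoidHom from by
          show (((Q0.1 : Subgroup X).subgroupOf R).map (MulAut.conj r).toMonoidHom).map R.subtype = _
          rw [Subgroup.map_map, Subgroup.map_map]; rfl] at h2
        rw [Subgroup.map_subgroupOf_eq_of_le h0R, Subgroup.map_subgroupOf_eq_of_le hQR] at h2
        exact h2
      refine ⟨(r : X) * d⁻¹, ?_, by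
        rw [mul_smul, Sylow.smul_eq_iff_mem_normalizer.mpr (Subgroup.inv_mem _ (Subgroup.le_normalizer hd)), h1]⟩
      have hn : (r : X) * d⁻¹ ∈ f.ker := by rw [MonoidHom.mem_ker, map_mul, map_inv, hdr, mul_inv_cancel]
      refine ⟨hn, Subgroup.mem_centralizer_singleton_iff.mpr ?_⟩
      set n := (r : X) * d⁻¹ with hndef
      have hQ : n • Q0.1 = Q.1.1 := by
        rw [hndef, mul_smul, Sylow.smul_eq_iff_mem_normalizer.mpr (Subgroup.inv_mem _ (Subgroup.le_normalizer hd)), h1]
      have hx : x ∈ ((n • Q0.1 : Sylow p X) : Subgroup X) := by rw [hQ]; exact Q.1.2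
      rw [Sylow.coe_subgroup_smul, Subgroup.mem_pointwise_smul_iff_inv_smul_mem] at hx
      have h4 : n⁻¹ * x * n ∈ (Q0.1 : Subgroup X) := by simpa [MulAut.smul_def] using hx
      have h5 := hdisj Q0.1 _ (mul_mem h4 (inv_mem Q0.2)) (by simp [MonoidHom.mem_ker.mp hn])
      calc n * x = n * (n⁻¹ * x * n) := by rw [mul_inv_eq_one.mp h5]
        _ = x * n := by group
    choose n hn hnQ using hex
    rw [← hm Q0.1, ← Nat.card_prod]
    refine Nat.card_le_card_of_injective (fun Qv => (⟨n Qv.1 * (Qv.2 : X), mul_mem (hn _) (hK0 Qv.2.2)⟩ : ↥K)) ?_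
    rintro ⟨Q, v⟩ ⟨Q', v'⟩ h
    have h1 : n Q * (v : X) = n Q' * (v' : X) := congrArg Subtype.val h
    have hfix : ∀ w : ↥K0, (w : X) • Q0.1 = Q0.1 := fun w =>
      Sylow.smul_eq_iff_mem_normalizer.mpr (Subgroup.centralizer_le_normalizer ((Q0.1 : Subgroup X) : Set X) w.2.2)
    have hQQ : Q = Q' := by
      have h2 := congrArg (fun g : X => g • Q0.1) h1
      simp only [mul_smul, hfix, hnQ] at h2
      exact Subtype.ext (Subtype.ext h2)
    subst hQQ
    rw [Subtype.ext (mul_left_cancel h1) (a1 := v) (a2 := v')]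
  have hA : Nat.card A = ∑ Qb : B, Nat.card {Q : A // Φ Q = Qb} := by
    rw [← Nat.card_sigma]
    exact Nat.card_congr (Equiv.sigmaFiberEquiv Φ).symm
  show Nat.card A * m ≤ _ * Nat.card B
  rw [hA, Finset.sum_mul, Nat.card_eq_fintype_card (α := B)]
  calc _ ≤ ∑ _Qb : B, Nat.card K := Finset.sum_le_sum fun Qb _ => hfib Qb
    _ = _ := by rw [Finset.sum_const, Finset.card_univ, smul_eq_mul, mul_comm]

theorem card_inf_centralizer_sylow_eq (N : Subgroup X) [N.Normal] (P Q : Sylow p X) :
    Nat.card ↥(N ⊓ Subgroup.centralizer ((P : Subgroup X) : Set X)) =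
      Nat.card ↥(N ⊓ Subgroup.centralizer ((Q : Subgroup X) : Set X)) := by
  obtain ⟨g, rfl⟩ := MulAction.exists_smul_eq X P Q
  rw [← Subgroup.card_map_of_injective (MulAut.conj g).injective
    (K := N ⊓ Subgroup.centralizer ((P : Subgroup X) : Set X)) (f := (MulAut.conj g).toMonoidHom)]
  congr 2
  apply le_antisymm
  · rintro _ ⟨u, ⟨huN, huC⟩, rfl⟩
    refine ⟨(inferInstance : N.Normal).conj_mem u huN g, Subgroup.mem_centralizer_iff.mpr fun q hq => ?_⟩
    rw [SetLike.mem_coe, Sylow.coe_subgroup_smul, Subgroup.mem_pointwise_smul_iff_inv_smul_mem] at hq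
    have h1 := Subgroup.mem_centralizer_iff.mp huC _ hq
    simp only [MulAut.smul_def, MulAut.conj_inv_apply] at h1
    show q * (g * u * g⁻¹) = g * u * g⁻¹ * q
    calc q * (g * u * g⁻¹) = g * ((g⁻¹ * q * g) * u) * g⁻¹ := by group
      _ = g * (u * (g⁻¹ * q * g)) * g⁻¹ := by rw [h1]
      _ = _ := by group
  · rintro u ⟨huN, huC⟩
    refine ⟨g⁻¹ * u * g, ⟨by simpa using (inferInstance : N.Normal).conj_mem u huN g⁻¹,
      Subgroup.mem_centralizer_iff.mpr fun q hq => ?_⟩, by simp [mul_assoc]⟩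
    have hq' : g * q * g⁻¹ ∈ ((g • P : Sylow p X) : Subgroup X) := by
      rw [Sylow.coe_subgroup_smul, Subgroup.mem_pointwise_smul_iff_inv_smul_mem]
      simpa [MulAut.smul_def, mul_assoc] using (SetLike.mem_coe.mp hq)
    have h1 := Subgroup.mem_centralizer_iff.mp huC _ hq'
    calc q * (g⁻¹ * u * g) = g⁻¹ * ((g * q * g⁻¹) * u) * g := by group
      _ = g⁻¹ * (u * (g * q * g⁻¹)) * g := by rw [h1]
      _ = _ := by group

/-- The `p'`-part of the centralizer of `H` along a step, or `1`. -/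
noncomputable def fixFactor (p : ℕ) (H A B : Subgroup X) : ℕ :=
  if (A.relIndex B).Coprime p then
    Nat.card {u : X // u ∈ B ∧ ∀ h ∈ H, h * u * h⁻¹ * u⁻¹ ∈ A} / Nat.card A else 1

/-- The order of a `p'`-step, or `1`. -/
noncomputable def stepOrder (p : ℕ) (A B : Subgroup X) : ℕ :=
  if (A.relIndex B).Coprime p then A.relIndex B else 1

section Step

variable {A B : Subgroup X} [A.Normal] [B.Normal]

theorem fixFactor_pos (hAB : A ≤ B) (H : Subgroup X) : 0 < fixFactor p H A B := by
  unfold fixFactor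
  split_ifs with hc
  · rw [card_commSet hAB H]; exact Nat.card_pos
  · exact one_pos

theorem fixFactor_sylow_eq (hAB : A ≤ B) (P Q : Sylow p X) :
    fixFactor p (P : Subgroup X) A B = fixFactor p (Q : Subgroup X) A B := by
  unfold fixFactor
  split_ifs with hc
  · rw [card_commSet hAB, card_commSet hAB, ← Sylow.coe_mapSurjective (QuotientGroup.mk'_surjective A) P,
      ← Sylow.coe_mapSurjective (QuotientGroup.mk'_surjective A) Q]
    exact card_inf_centralizer_sylow_eq _ _ _
  · rfl

theorem sylowCount_step (hAB : A ≤ B) (hfac : (∃ m : ℕ, A.relIndex B = p ^ m) ∨ (A.relIndex B).Coprime p)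
    (P : Sylow p X) (x : X) :
    sylowCount p (x : X ⧸ A) * fixFactor p (P : Subgroup X) A B ≤
      fixFactor p (Subgroup.zpowers x) A B * sylowCount p (x : X ⧸ B) := by
  unfold fixFactor
  split_ifs with hc
  · rw [card_commSet hAB, card_commSet hAB]
    have hz : Subgroup.centralizer (((Subgroup.zpowers x).map (QuotientGroup.mk' A) : Subgroup (X ⧸ A)) : Set (X ⧸ A))
        = Subgroup.centralizer ({(x : X ⧸ A)} : Set (X ⧸ A)) := by
      rw [MonoidHom.map_zpowers, Subgroup.zpowers_eq_closure, Subgroup.centralizer_closure]; rfl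
    rw [hz]
    exact sylowCount_mul_le (stepMap A B hAB) (stepMap_surjective A B hAB) (card_stepMap_ker A B hAB ▸ hc)
      (x : X ⧸ A) _ fun Q => by
        rw [← Sylow.coe_mapSurjective (QuotientGroup.mk'_surjective A) P]
        exact card_inf_centralizer_sylow_eq _ _ _
  · obtain ⟨m, hm⟩ := hfac.resolve_right hc
    rw [mul_one, one_mul]
    exact sylowCount_le_of_pKer (stepMap A B hAB) (stepMap_surjective A B hAB)
      (IsPGroup.of_card (n := m) ((card_stepMap_ker A B hAB).trans hm)) (x : X ⧸ A)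

end Step

theorem step_bound {X : Type u} [Group X] [Finite X] {A B : Subgroup X} [A.Normal] [B.Normal] (hAB : A ≤ B)
    (Q : Sylow p X) [Fintype ↥(Q : Subgroup X)] :
    (∏ x : ↥(Q : Subgroup X), fixFactor p (Subgroup.zpowers (x : X)) A B) ^ p ≤
      stepOrder p A B ^ Fintype.card ↥(Q : Subgroup X) *
        fixFactor p (Q : Subgroup X) A B ^ (Fintype.card ↥(Q : Subgroup X) * (p - 1)) := by
  unfold fixFactor stepOrder
  split_ifs with hc
  · set f := stepMap A B hAB
    let φ : ↥(Q : Subgroup X) →* MulAut ↥f.ker :=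
      (MulAut.conjNormal (H := f.ker)).comp ((QuotientGroup.mk' A).comp (Q : Subgroup X).subtype)
    have h := bound (p := p) ↥(Q : Subgroup X) ↥f.ker φ Q.isPGroup' (by
      rw [card_stepMap_ker A B hAB]
      exact ((Fact.out : p.Prime).coprime_iff_not_dvd).mp hc.symm)
    unfold Bound at h
    have hfix : ∀ (S : Set ↥(Q : Subgroup X)) (H : Subgroup X),
        H = Subgroup.closure ((Q : Subgroup X).subtype '' S) → Nat.card (fixSub φ S) =
          Nat.card {u : X // u ∈ B ∧ ∀ h ∈ H, h * u * h⁻¹ * u⁻¹ ∈ A} / Nat.card A := by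
      rintro S H rfl
      rw [card_commSet hAB, MonoidHom.map_closure, Subgroup.centralizer_closure]
      refine Nat.card_congr
        { toFun := fun n => ⟨(n.1 : X ⧸ A), n.1.2, Subgroup.mem_centralizer_iff.mpr ?_⟩
          invFun := fun n => ⟨⟨n.1, n.2.1⟩, fun y hy => Subtype.ext ?_⟩
          left_inv := fun n => rfl
          right_inv := fun n => rfl }
      · rintro _ ⟨_, ⟨y, hy, rfl⟩, rfl⟩
        have h1 := congrArg Subtype.val (n.2 y hy)
        simpa [φ, mul_inv_eq_iff_eq_mul] using h1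
      · have h1 := Subgroup.mem_centralizer_iff.mp n.2.2 _ ⟨_, ⟨y, hy, rfl⟩, rfl⟩
        show (φ y ⟨n.1, n.2.1⟩ : X ⧸ A) = n.1
        simpa [φ, mul_inv_eq_iff_eq_mul] using h1
    rw [hfix Set.univ (Q : Subgroup X) (by
      rw [Set.image_univ, ← MonoidHom.coe_range, Subgroup.range_subtype, Subgroup.closure_eq]),
      card_stepMap_ker A B hAB] at h
    refine le_trans (le_of_eq ?_) h
    congr 1
    refine Finset.prod_congr rfl fun x _ => (hfix {x} _ ?_).symm
    rw [Set.image_singleton, Subgroup.zpowers_eq_closure]; rfl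
  · simp

end CfsgLib.SubnormalizerCount
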