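import Cfsg.Agent.Eq.Def_Local
import Cfsg.Agent.CharP.PCore
import Cfsg.Agent.LocalCharP.Residual
import Cfsg.Agent.S0064
import Mathlib.GroupTheory.Sylow
import Mathlib.Tactic.Group

/-!
Counting the elements `g` that normalize some `p`-subgroup containing a given `p`-subgroup `H`, along a
homomorphism with `p`-group or `p'`-kernel.
-/

set_option autoImplicit false

namespace CfsgLib.SubnormalizerCount

variable {X Y : Type*} [Group X] [Group Y] {p : ℕ}

/-- `g` normalizes a `p`-subgroup containing `H`. -/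
def Good (p : ℕ) (H : Subgroup X) (g : X) : Prop :=
  ∃ D : Subgroup X, IsPGroup p D ∧ H ≤ D ∧ g ∈ Subgroup.normalizer (D : Set X)

/-- `Good` is subnormality of `H` in `⟨H, g⟩`. -/
theorem good_iff_isSubnormal [Finite X] [Fact p.Prime] {H : Subgroup X} (hH : IsPGroup p H) (g : X) :
    Good p H g ↔ (H.subgroupOf (H ⊔ Subgroup.zpowers g)).IsSubnormal := by
  set L := H ⊔ Subgroup.zpowers g with hL
  constructor
  · rintro ⟨D, hD, hHD, hg⟩
    have hLD : L ≤ Subgroup.normalizer (D : Set X) :=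
      sup_le (hHD.trans Subgroup.le_normalizer) (Subgroup.zpowers_le.mpr hg)
    haveI hn : (D.subgroupOf L).Normal := Subgroup.normal_subgroupOf_of_le_normalizer hLD
    haveI : Group.IsNilpotent ↥(D.subgroupOf L) :=
      (hD.comap_of_injective L.subtype L.subtype_injective).isNilpotent
    exact Subgroup.IsSubnormal.trans (fun x hx => hHD hx)
      (Cfsg.Agent.S0064.result.mp inferInstance _) hn.isSubnormal
  · intro h
    have hle := CfsgLib.LocalCharP.le_pCore_of_isSubnormal h (hH.comap_of_injective L.subtype L.subtype_injective)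
    refine ⟨(Cfsg.pCore p ↥L).map L.subtype, (CfsgLib.CharP.isPGroup_pCore).map L.subtype, fun x hx => ?_, ?_⟩
    · exact ⟨⟨x, (le_sup_left : H ≤ L) hx⟩, hle hx, rfl⟩
    · haveI := Cfsg.pCore_normal p ↥L
      have h1 : (⟨g, (le_sup_right : Subgroup.zpowers g ≤ L) (Subgroup.mem_zpowers g)⟩ : ↥L) ∈
          Subgroup.normalizer ((Cfsg.pCore p ↥L : Subgroup ↥L) : Set ↥L) := by
        rw [Subgroup.normalizer_eq_top]; trivial
      exact Subgroup.le_normalizer_map L.subtype ⟨_, h1, rfl⟩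

theorem card_eq_mul_of_fiber [Finite X] {P : X → Prop} {Q : Y → Prop} (f : X → Y) (hPQ : ∀ x, P x → Q (f x))
    (c : ℕ) (hfib : ∀ y, Q y → Nat.card {x : X // f x = y ∧ P x} = c) :
    Nat.card {x : X // P x} = c * Nat.card {y : Y // Q y} := by
  classical
  by_cases hfin : Finite {y : Y // Q y}
  · haveI := Fintype.ofFinite {y : Y // Q y}
    let e : {x : X // P x} ≃ Σ y : {y : Y // Q y}, {x : X // f x = y.1 ∧ P x} :=
      { toFun := fun x => ⟨⟨f x.1, hPQ _ x.2⟩, ⟨x.1, rfl, x.2⟩⟩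
        invFun := fun s => ⟨s.2.1, s.2.2.2⟩
        left_inv := fun x => rfl
        right_inv := by
          rintro ⟨⟨y, hy⟩, ⟨x, hx, hP⟩⟩
          cases hx
          rfl }
    rw [Nat.card_congr e, Nat.card_sigma, Finset.sum_congr rfl (fun y _ => hfib y.1 y.2), Finset.sum_const,
      smul_eq_mul, Finset.card_univ, Nat.card_eq_fintype_card, mul_comm]
  · haveI : Infinite {y : Y // Q y} := not_finite_iff_infinite.mp hfin
    by_cases hc : c = 0
    · subst hc
      rw [zero_mul, Nat.card_eq_zero]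
      left
      refine ⟨fun x => ?_⟩
      have h := hfib _ (hPQ x.1 x.2)
      haveI : Nonempty {z : X // f z = f x.1 ∧ P z} := ⟨⟨x.1, rfl, x.2⟩⟩
      exact Nat.card_pos.ne' h
    · exfalso
      have hs : ∀ y : {y : Y // Q y}, ∃ x : X, f x = y.1 := fun y => by
        have h := hfib y.1 y.2
        obtain ⟨x, hx, -⟩ : Nonempty {x : X // f x = y.1 ∧ P x} := (Nat.card_ne_zero.mp (h ▸ hc)).1
        exact ⟨x, hx⟩
      choose s hs' using hs
      exact hfin (Finite.of_injective s fun a b hab => Subtype.ext (by rw [← hs' a, ← hs' b, hab]))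

variable [Finite X] [Fact p.Prime]

theorem good_map (f : X →* Y) {H : Subgroup X} {g : X} (h : Good p H g) : Good p (H.map f) (f g) := by
  obtain ⟨D, hD, hHD, hg⟩ := h
  exact ⟨D.map f, hD.map f, Subgroup.map_mono hHD, Subgroup.le_normalizer_map f ⟨g, hg, rfl⟩⟩

/-- The step along a kernel which is a `p`-group. -/
theorem card_good_of_pKer (f : X →* Y) (hf : Function.Surjective f) (hk : IsPGroup p f.ker) (H : Subgroup X) :
    Nat.card {g : X // Good p H g} = Nat.card f.ker * Nat.card {y : Y // Good p (H.map f) y} := by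
  refine card_eq_mul_of_fiber f (fun g hg => good_map f hg) _ fun y hy => ?_
  obtain ⟨D, hD, hHD, hyD⟩ := hy
  obtain ⟨g0, rfl⟩ := hf y
  have hgood : ∀ g : X, f g = f g0 → Good p H g := fun g hg => by
    refine ⟨D.comap f, hD.comap_of_ker_isPGroup f hk, Subgroup.map_le_iff_le_comap.mp hHD, ?_⟩
    rw [Subgroup.mem_normalizer_iff]
    intro x
    rw [Subgroup.mem_comap, Subgroup.mem_comap, map_mul, map_mul, map_inv, hg]
    exact Subgroup.mem_normalizer_iff.mp hyD (f x)
  refine Nat.card_congr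
    { toFun := fun x => ⟨x.1 * g0⁻¹, by rw [MonoidHom.mem_ker, map_mul, map_inv, x.2.1, mul_inv_cancel]⟩
      invFun := fun u => ⟨u.1 * g0, by rw [map_mul, MonoidHom.mem_ker.mp u.2, one_mul],
        hgood _ (by rw [map_mul, MonoidHom.mem_ker.mp u.2, one_mul])⟩
      left_inv := fun x => Subtype.ext (by simp)
      right_inv := fun u => Subtype.ext (by simp) }

/-- The step along a kernel of order prime to `p`. -/
theorem card_good_of_coprimeKer (f : X →* Y) (hf : Function.Surjective f) (hk : (Nat.card f.ker).Coprime p)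
    {H : Subgroup X} (hH : IsPGroup p H) :
    Nat.card {g : X // Good p H g} =
      Nat.card ↥(f.ker ⊓ Subgroup.centralizer (H : Set X)) * Nat.card {y : Y // Good p (H.map f) y} := by
  refine card_eq_mul_of_fiber f (fun g hg => good_map f hg) _ fun y hy => ?_
  obtain ⟨E, hE, hHE, hyE⟩ := hy
  set R' : Subgroup Y := sInf {A : Subgroup Y | H.map f ≤ A ∧ y ∈ Subgroup.normalizer (A : Set Y)} with hR'
  have hHR' : H.map f ≤ R' := le_sInf fun A hA => hA.1
  have hR'E : R' ≤ E := sInf_le ⟨hHE, hyE⟩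
  have hyR' : y ∈ Subgroup.normalizer (R' : Set Y) := by
    rw [Subgroup.mem_normalizer_iff]
    intro x
    simp only [hR', Subgroup.mem_sInf, Set.mem_setOf_eq]
    exact ⟨fun h A hA => (Subgroup.mem_normalizer_iff.mp hA.2 x).mp (h A hA),
      fun h A hA => (Subgroup.mem_normalizer_iff.mp hA.2 x).mpr (h A hA)⟩
  set R := R'.comap f with hR
  have hHR : H ≤ R := Subgroup.map_le_iff_le_comap.mp hHR'
  -- a p-group meets the kernel trivially
  have hdisj : ∀ D : Subgroup X, IsPGroup p D → ∀ d ∈ D, f d = 1 → d = 1 := by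
    intro D hD d hd hfd
    obtain ⟨k, hk'⟩ := hD ⟨d, hd⟩
    refine orderOf_eq_one_iff.mp (Nat.eq_one_of_dvd_coprimes (hk.pow_right k)
      (Subgroup.orderOf_dvd_natCard _ (MonoidHom.mem_ker.mpr hfd)) (orderOf_dvd_of_pow_eq_one ?_))
    simpa using congrArg Subtype.val hk'
  -- full complements
  let Full : Subgroup X → Prop := fun D => IsPGroup p D ∧ H ≤ D ∧ D.map f = R'
  have hFullR : ∀ {D : Subgroup X}, Full D → D ≤ R := fun {D} hD => Subgroup.map_le_iff_le_comap.mp hD.2.2.le
  have hinj : ∀ {D D' : Subgroup X}, IsPGroup p D' → D ≤ D' → D'.map f ≤ D.map f → D = D' := by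
    intro D D' hD' hle hmap
    refine le_antisymm hle fun x hx => ?_
    obtain ⟨d, hd, hdx⟩ := hmap ⟨x, hx, rfl⟩
    have h1 := hdisj D' hD' (d⁻¹ * x) (D'.mul_mem (D'.inv_mem (hle hd)) hx)
      (by rw [map_mul, map_inv, hdx, inv_mul_cancel])
    rw [← inv_mul_eq_one.mp h1]
    exact hd
  -- an element normalizing a p-subgroup over H in the fibre gives a full complement
  have hfull : ∀ g : X, f g = y → ∀ D : Subgroup X, IsPGroup p D → H ≤ D →
      g ∈ Subgroup.normalizer (D : Set X) → Full (D ⊓ R) ∧ g ∈ Subgroup.normalizer ((D ⊓ R : Subgroup X) : Set X) := by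
    intro g hg D hD hHD hgD
    refine ⟨⟨hD.to_le inf_le_left, le_inf hHD hHR, le_antisymm ?_ ?_⟩, ?_⟩
    · exact Subgroup.map_le_iff_le_comap.mpr inf_le_right
    · have h1 : R' ≤ D.map f :=
        sInf_le ⟨Subgroup.map_mono hHD, hg ▸ Subgroup.le_normalizer_map f ⟨g, hgD, rfl⟩⟩
      intro x hx
      obtain ⟨d, hd, rfl⟩ := h1 hx
      exact ⟨d, ⟨hd, hx⟩, rfl⟩
    · rw [Subgroup.mem_normalizer_iff]
      intro x
      simp only [Subgroup.mem_inf, hR, Subgroup.mem_comap, map_mul, map_inv, hg]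
      exact and_congr (Subgroup.mem_normalizer_iff.mp hgD x) (Subgroup.mem_normalizer_iff.mp hyR' (f x))
  -- complements are Sylow subgroups of R
  have hsyl : ∀ {D : Subgroup X}, IsPGroup p D → D.map f = R' → ¬ p ∣ (D.subgroupOf R).index := by
    intro D hD hDf
    have hsup : D ⊔ f.ker = R := by rw [← Subgroup.comap_map_eq, hDf]
    have h1 : (D.subgroupOf R).index = D.relIndex R := rfl
    have hdis : D ⊓ f.ker = ⊥ := by
      rw [eq_bot_iff]
      intro x hx
      exact Subgroup.mem_bot.mpr (hdisj D hD x hx.1 (MonoidHom.mem_ker.mp hx.2))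
    have e1 : f.ker.relIndex D = Nat.card D := by
      rw [← Subgroup.inf_relIndex_right, inf_comm, hdis, Subgroup.relIndex_bot_left]
    have e2 := Subgroup.relIndex_mul_relIndex (⊥ : Subgroup X) f.ker R bot_le (hsup ▸ le_sup_right)
    have e3 := Subgroup.relIndex_mul_relIndex (⊥ : Subgroup X) D R bot_le (hsup ▸ le_sup_left)
    rw [Subgroup.relIndex_bot_left, Subgroup.relIndex_bot_left] at e2 e3
    have e4 : f.ker.relIndex R = Nat.card D := by rw [← hsup, Subgroup.relIndex_sup_right, e1]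
    rw [e4] at e2
    rw [h1, show D.relIndex R = Nat.card f.ker from
      Nat.eq_of_mul_eq_mul_left Nat.card_pos (e3.trans (by rw [← e2, mul_comm]))]
    exact ((Fact.out : p.Prime).coprime_iff_not_dvd).mp hk.symm
  have hsylconj : ∀ {D D' : Subgroup X}, IsPGroup p D → D.map f = R' → IsPGroup p D' → D'.map f = R' →
      ∃ n ∈ f.ker, D' = D.map (MulAut.conj n).toMonoidHom := by
    intro D D' hD hDf hD' hDf'
    let T : Sylow p ↥R := (hD.comap_of_injective R.subtype R.subtype_injective).toSylow (hsyl hD hDf)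
    let T' : Sylow p ↥R := (hD'.comap_of_injective R.subtype R.subtype_injective).toSylow (hsyl hD' hDf')
    obtain ⟨x, hx⟩ := MulAction.exists_smul_eq ↥R T T'
    obtain ⟨d, hd, hdx⟩ : f (x : X) ∈ D.map f := hDf.symm ▸ x.2
    set n := (x : X) * d⁻¹ with hn
    have hnker : n ∈ f.ker := by rw [MonoidHom.mem_ker, hn, map_mul, map_inv, hdx, mul_inv_cancel]
    have heq : D' = D.map (MulAut.conj n).toMonoidHom := by
      ext z
      have hz : ∀ hzR : z ∈ R, (z ∈ D' ↔ (x : X)⁻¹ * z * x ∈ D) := by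
        intro hzR
        have h1 : (⟨z, hzR⟩ : ↥R) ∈ (T' : Subgroup ↥R) ↔ (⟨z, hzR⟩ : ↥R) ∈ ((x • T : Sylow p ↥R) : Subgroup ↥R) := by
          rw [hx]
        rw [Sylow.coe_subgroup_smul, Subgroup.mem_pointwise_smul_iff_inv_smul_mem] at h1
        simpa [T, T', Subgroup.mem_subgroupOf, MulAut.smul_def, MulAut.conj_apply] using h1
      rw [Subgroup.mem_map_equiv, MulAut.conj_symm_apply]
      have e : (x : X)⁻¹ * z * x = d⁻¹ * (n⁻¹ * z * n) * d := by rw [hn]; group
      constructor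
      · intro hzD
        have h2 := (hz ((Subgroup.map_le_iff_le_comap.mp hDf'.le) hzD)).mp hzD
        rw [e] at h2
        simpa [mul_assoc] using D.mul_mem (D.mul_mem hd h2) (D.inv_mem hd)
      · intro hzD
        have hzR : z ∈ R := by
          rw [hR, Subgroup.mem_comap]
          have h3 : f (n⁻¹ * z * n) ∈ R' := hDf ▸ ⟨_, hzD, rfl⟩
          simpa [MonoidHom.mem_ker.mp hnker] using h3
        refine (hz hzR).mpr ?_
        rw [e]
        exact D.mul_mem (D.mul_mem (D.inv_mem hd) hzD) hd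
    exact ⟨n, hnker, heq⟩
  have hconjFull : ∀ {D D' : Subgroup X}, Full D → Full D' →
      ∃ n ∈ f.ker ⊓ Subgroup.centralizer (H : Set X), D' = D.map (MulAut.conj n).toMonoidHom := by
    intro D D' hD hD'
    obtain ⟨n, hnker, heq⟩ := hsylconj hD.1 hD.2.2 hD'.1 hD'.2.2
    refine ⟨n, ⟨hnker, Subgroup.mem_centralizer_iff.mpr fun h hh => ?_⟩, heq⟩
    have h4 : h ∈ D.map (MulAut.conj n).toMonoidHom := heq ▸ hD'.2.1 hh
    rw [Subgroup.mem_map_equiv, MulAut.conj_symm_apply] at h4
    have h5 := hdisj D hD.1 _ (D.mul_mem h4 (D.inv_mem (hD.2.1 hh)))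
      (by simp [MonoidHom.mem_ker.mp hnker])
    calc h * n = n * (n⁻¹ * h * n) := by group
      _ = n * h := by rw [mul_inv_eq_one.mp h5]
  -- a base pair
  obtain ⟨D0, g1, hD0, hg1, hg1D⟩ : ∃ (D0 : Subgroup X) (g1 : X), Full D0 ∧ f g1 = y ∧
      g1 ∈ Subgroup.normalizer (D0 : Set X) := by
    obtain ⟨T, hT⟩ := (hH.comap_of_injective R.subtype R.subtype_injective).exists_le_sylow
    set D0 := (T : Subgroup ↥R).map R.subtype with hD0def
    have hD0p : IsPGroup p D0 := T.isPGroup'.map _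
    have hHD0 : H ≤ D0 := fun h hh => ⟨⟨h, hHR hh⟩, hT hh, rfl⟩
    -- the image of a Sylow subgroup of `R` is all of the `p`-group `R'`
    let fR : ↥R →* ↥R' := (f.comp R.subtype).codRestrict R' fun x => x.2
    have hfR : Function.Surjective fR := fun z => by
      obtain ⟨x, hx⟩ := hf z.1
      exact ⟨⟨x, by rw [hR, Subgroup.mem_comap, hx]; exact z.2⟩, Subtype.ext hx⟩
    have himg : ((T.mapSurjective hfR : Sylow p ↥R') : Subgroup ↥R') = ⊤ :=
      (T.mapSurjective hfR).3 ((hE.to_le hR'E).to_subgroup ⊤) le_top |>.symm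
    rw [Sylow.coe_mapSurjective] at himg
    have hF0 : Full D0 := by
      refine ⟨hD0p, hHD0, le_antisymm ?_ fun z hz => ?_⟩
      · rw [Subgroup.map_le_iff_le_comap]
        exact Subgroup.map_subtype_le _
      · obtain ⟨x, hx, hxz⟩ : (⟨z, hz⟩ : ↥R') ∈ (T : Subgroup ↥R).map fR := himg ▸ Subgroup.mem_top _
        exact ⟨x, ⟨x, hx, rfl⟩, congrArg Subtype.val hxz⟩
    obtain ⟨g0, hg0⟩ := hf y
    -- move `g0 D0 g0⁻¹` back by an element of the kernel
    have hF1 : IsPGroup p ↥(D0.map (MulAut.conj g0).toMonoidHom) ∧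
        (D0.map (MulAut.conj g0).toMonoidHom).map f = R' := by
      refine ⟨hD0p.map _, ?_⟩
      rw [Subgroup.map_map, show f.comp (MulAut.conj g0).toMonoidHom = (MulAut.conj y).toMonoidHom.comp f from
        MonoidHom.ext fun x => by simp [hg0], ← Subgroup.map_map, hF0.2.2]
      ext z
      rw [Subgroup.mem_map_equiv, MulAut.conj_symm_apply]
      constructor
      · intro h
        simpa [mul_assoc] using (Subgroup.mem_normalizer_iff.mp hyR' _).mp h
      · intro h
        refine (Subgroup.mem_normalizer_iff.mp hyR' _).mpr ?_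
        simpa [mul_assoc] using h
    obtain ⟨n, hn, hne⟩ := hsylconj hD0p hF0.2.2 hF1.1 hF1.2
    refine ⟨D0, n⁻¹ * g0, hF0, by rw [map_mul, map_inv, MonoidHom.mem_ker.mp hn, inv_one, one_mul, hg0], ?_⟩
    rw [Subgroup.mem_normalizer_iff]
    intro z
    have h1 : g0 * z * g0⁻¹ ∈ D0.map (MulAut.conj g0).toMonoidHom ↔
        g0 * z * g0⁻¹ ∈ D0.map (MulAut.conj n).toMonoidHom := by rw [hne]
    simp only [Subgroup.mem_map_equiv, MulAut.conj_symm_apply] at h1
    simpa [mul_assoc] using h1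
  set K := f.ker ⊓ Subgroup.centralizer (H : Set X) with hK
  set K0 := f.ker ⊓ Subgroup.centralizer (D0 : Set X) with hK0
  have hK0K : K0 ≤ K := inf_le_inf_left _ (Subgroup.centralizer_le hD0.2.1)
  have hKnorm : f.ker ⊓ Subgroup.normalizer (D0 : Set X) ≤ K0 := by
    rintro v ⟨hv, hvN⟩
    refine ⟨hv, Subgroup.mem_centralizer_iff.mpr fun d hd => ?_⟩
    have h1 := hdisj D0 hD0.1 _ (D0.mul_mem ((Subgroup.mem_normalizer_iff.mp hvN d).mp hd) (D0.inv_mem hd))
      (by simp [MonoidHom.mem_ker.mp hv])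
    calc d * v = (v * d * v⁻¹) * v := by rw [mul_inv_eq_one.mp h1]
      _ = v * d := by group
  have hcD : ∀ c ∈ K, Full (D0.map (MulAut.conj c).toMonoidHom) := by
    intro c hc
    refine ⟨hD0.1.map _, fun h hh => ?_, ?_⟩
    · rw [Subgroup.mem_map_equiv, MulAut.conj_symm_apply,
        mul_assoc, Subgroup.mem_centralizer_iff.mp hc.2 h hh, ← mul_assoc, inv_mul_cancel, one_mul]
      exact hD0.2.1 hh
    · rw [Subgroup.map_map, ← hD0.2.2]
      congr 1
      ext d
      simp [MonoidHom.mem_ker.mp hc.1]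
  have hnormconj : ∀ (c g : X) (D : Subgroup X),
      g ∈ Subgroup.normalizer ((D.map (MulAut.conj c).toMonoidHom : Subgroup X) : Set X) ↔
        c⁻¹ * g * c ∈ Subgroup.normalizer (D : Set X) := by
    intro c g D
    rw [Subgroup.mem_normalizer_iff, Subgroup.mem_normalizer_iff]
    constructor
    · intro h z
      have h1 := h (c * z * c⁻¹)
      simp only [Subgroup.mem_map_equiv, MulAut.conj_symm_apply] at h1
      simpa [mul_assoc] using h1
    · intro h z
      simp only [Subgroup.mem_map_equiv, MulAut.conj_symm_apply]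
      have h1 := h (c⁻¹ * z * c)
      simpa [mul_assoc] using h1
  have huniq : ∀ (g : X), f g = y → ∀ D D' : Subgroup X, Full D → Full D' →
      g ∈ Subgroup.normalizer (D : Set X) → g ∈ Subgroup.normalizer (D' : Set X) → D = D' := by
    intro g hg D D' hD hD' hgD hgD'
    have hI : Full (D ⊓ D' ⊓ R) := (hfull g hg (D ⊓ D') (hD.1.to_le inf_le_left) (le_inf hD.2.1 hD'.2.1) (by
      rw [Subgroup.mem_normalizer_iff]
      intro x
      exact and_congr (Subgroup.mem_normalizer_iff.mp hgD x) (Subgroup.mem_normalizer_iff.mp hgD' x))).1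
    have h1 : D ⊓ D' ⊓ R = D := hinj hD.1 (inf_le_left.trans inf_le_left) (hD.2.2.le.trans hI.2.2.ge)
    have h2 : D ⊓ D' ⊓ R = D' := hinj hD'.1 (inf_le_left.trans inf_le_right) (hD'.2.2.le.trans hI.2.2.ge)
    exact h1.symm.trans h2
  let Q := ↥K ⧸ K0.subgroupOf K
  let φ : Q × ↥(K0.subgroupOf K) → {g : X // f g = y ∧ Good p H g} := fun qu =>
    ⟨(qu.1.out : X) * ((qu.2 : ↥K) : X) * g1 * (qu.1.out : X)⁻¹, by
      simp [MonoidHom.mem_ker.mp (qu.1.out).2.1, MonoidHom.mem_ker.mp (qu.2 : ↥K).2.1, hg1], by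
      refine ⟨_, (hcD _ (qu.1.out).2).1, (hcD _ (qu.1.out).2).2.1, (hnormconj _ _ _).mpr ?_⟩
      have hu : ((qu.2 : ↥K) : X) * g1 ∈ Subgroup.normalizer (D0 : Set X) :=
        mul_mem (Subgroup.centralizer_le_normalizer (D0 : Set X) (qu.2.2 : _ ∈ K0).2) hg1D
      simpa [mul_assoc] using hu⟩
  have hφ : Function.Bijective φ := by
    constructor
    · rintro ⟨q, u⟩ ⟨q', u'⟩ h
      have hval := congrArg Subtype.val h
      simp only [φ] at hval
      set c : ↥K := q.out with hc
      set c' : ↥K := q'.out with hc'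
      have hnor : ∀ (c : ↥K) (u : ↥(K0.subgroupOf K)),
          (c : X) * ((u : ↥K) : X) * g1 * (c : X)⁻¹ ∈
            Subgroup.normalizer ((D0.map (MulAut.conj (c : X)).toMonoidHom : Subgroup X) : Set X) := by
        intro c u
        refine (hnormconj _ _ _).mpr ?_
        simpa [mul_assoc] using
          (mul_mem (Subgroup.centralizer_le_normalizer (D0 : Set X) (u.2 : _ ∈ K0).2) hg1D)
      have hg : f ((c : X) * ((u : ↥K) : X) * g1 * (c : X)⁻¹) = y := by
        simp [MonoidHom.mem_ker.mp c.2.1, MonoidHom.mem_ker.mp (u : ↥K).2.1, hg1]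
      have hD := huniq _ hg _ _ (hcD _ c.2) (hcD _ c'.2) (hnor c u) (hval ▸ hnor c' u')
      have hmem : c⁻¹ * c' ∈ K0.subgroupOf K := by
        refine hKnorm ⟨(c⁻¹ * c').2.1, ?_⟩
        show ((c⁻¹ * c' : ↥K) : X) ∈ Subgroup.normalizer (D0 : Set X)
        rw [Subgroup.mem_normalizer_iff]
        intro z
        have h1 : ((c' : X) * z * (c' : X)⁻¹ ∈ D0.map (MulAut.conj (c : X)).toMonoidHom) ↔
            ((c' : X) * z * (c' : X)⁻¹ ∈ D0.map (MulAut.conj (c' : X)).toMonoidHom) := by rw [hD]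
        simp only [Subgroup.mem_map_equiv, MulAut.conj_symm_apply] at h1
        simp only [Subgroup.coe_mul, Subgroup.coe_inv]
        simpa [mul_assoc] using h1.symm
      have hq : q = q' := by
        rw [← QuotientGroup.out_eq' q, ← QuotientGroup.out_eq' q']
        exact QuotientGroup.eq.mpr hmem
      subst hq
      have hu : u = u' := by
        apply Subtype.ext; apply Subtype.ext
        exact mul_left_cancel (mul_right_cancel (mul_right_cancel hval))
      rw [hu]
    · rintro ⟨g, hg, D, hD, hHD, hgD⟩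
      obtain ⟨hFD, hgFD⟩ := hfull g hg D hD hHD hgD
      obtain ⟨n, hn, hne⟩ := hconjFull hD0 hFD
      rw [hne, hnormconj] at hgFD
      have hu0 : n⁻¹ * g * n * g1⁻¹ ∈ K0 :=
        hKnorm (Subgroup.mem_inf.mpr ⟨by simp [MonoidHom.mem_ker.mp hn.1, hg, hg1], mul_mem hgFD (inv_mem hg1D)⟩)
      obtain ⟨v, hv⟩ := QuotientGroup.mk_out_eq_mul (K0.subgroupOf K) (⟨n, hn⟩ : ↥K)
      set c : ↥K := ((⟨n, hn⟩ : ↥K) : Q).out with hc
      have hv0 : ((v : ↥K) : X) ∈ K0 := v.2
      have hg1v : g1 * ((v : ↥K) : X) * g1⁻¹ ∈ K0 := by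
        refine hKnorm (Subgroup.mem_inf.mpr ⟨(MonoidHom.normal_ker f).conj_mem _ hv0.1 g1, ?_⟩)
        exact mul_mem (mul_mem hg1D (Subgroup.centralizer_le_normalizer (D0 : Set X) hv0.2)) (inv_mem hg1D)
      have hcv : (c : X) = n * ((v : ↥K) : X) := congrArg Subtype.val hv
      refine ⟨(((⟨n, hn⟩ : ↥K) : Q), ⟨⟨((v : ↥K) : X)⁻¹ * (n⁻¹ * g * n * g1⁻¹) * (g1 * ((v : ↥K) : X) * g1⁻¹),
        hK0K (mul_mem (mul_mem (inv_mem hv0) hu0) hg1v)⟩, mul_mem (mul_mem (inv_mem hv0) hu0) hg1v⟩), ?_⟩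
      apply Subtype.ext
      show (c : X) * _ * g1 * (c : X)⁻¹ = g
      rw [hcv]
      group
  rw [← Nat.card_congr (Equiv.ofBijective φ hφ), ← Nat.card_congr (Subgroup.groupEquivQuotientProdSubgroup (s := K0.subgroupOf K))]

end CfsgLib.SubnormalizerCount
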